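import Cfsg.Agent.Lib.Helper37.Suzuki.BinB
import Cfsg.Agent.Lib.Helper37.Suzuki.BinC
import Cfsg.Agent.Lib.Helper37.Suzuki.CovD

/-!
# Binary coset actions of the Suzuki groups: the centre of a Sylow 2-subgroup
-/

set_option autoImplicit false

namespace Cfsg.Agent.Lib.Helper37.Suz

open Matrix TICount Bin
open scoped LinearAlgebra.Projectivization

variable {F : Type*} [Field F] [Fintype F] {m : ℕ} [SzField F m]

theorem mem_Zsub {g : Cfsg.Sz F m} : g ∈ Zsub F m ↔ ∃ y, g = TS m 0 y := Iff.rfl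

theorem conj_mem_Zsub_of_Binf {x : Cfsg.Sz F m} (hx : x ∈ Binf F m) {h : Cfsg.Sz F m}
    (hh : h ∈ Zsub F m) : x * h * x⁻¹ ∈ Zsub F m := by
  obtain ⟨b, rfl⟩ := hh
  obtain ⟨κ, -, hc⟩ := fix_inf_conj m x hx
  exact ⟨_, hc b⟩

theorem mem_Binf_of_conj_mem_Zsub {x h : Cfsg.Sz F m} (hh : h ∈ Zsub F m) (h1 : h ≠ 1)
    (hc : x * h * x⁻¹ ∈ Zsub F m) : x ∈ Binf F m := by
  obtain ⟨b', rfl⟩ := hh
  obtain ⟨b, hb⟩ := hc
  apply conj_fix m x (b := b) _ hb
  rintro rfl
  apply h1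
  rw [TS_zero] at hb
  have : TS m 0 b' = x⁻¹ * (x * TS m 0 b' * x⁻¹) * x := by group
  rw [this, hb]; group

theorem isBin'_Zsub : IsBin' (Zsub F m) := by
  have hchar := charTwo (F := F) m
  apply isBin'_of_TI
  · rintro _ ⟨b, rfl⟩
    rw [TS0_mul, add_self', TS_zero]
  · intro x
    by_cases hx : x ∈ Binf F m
    · left
      exact fun h hh => conj_mem_Zsub_of_Binf hx hh
    · right
      intro h hh hc
      by_contra h1
      exact hx (mem_Binf_of_conj_mem_Zsub hh h1 hc)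
  · intro x y a ha b hb ha1 hb1 hcomm h hh
    apply conj_mem_Zsub_of_Binf _ hh
    -- `u = y⁻¹ x a x⁻¹ y` commutes with `b`
    set u := (y⁻¹ * x) * a * (y⁻¹ * x)⁻¹ with hu
    have hub : b * u = u * b := by
      have e1 : b * u = y⁻¹ * ((y * b * y⁻¹) * (x * a * x⁻¹)) * y := by rw [hu]; group
      have e2 : u * b = y⁻¹ * ((x * a * x⁻¹) * (y * b * y⁻¹)) * y := by rw [hu]; group
      rw [e1, e2, hcomm]
    have hbQ : b ∈ Qsub F m := by
      obtain ⟨β, rfl⟩ := hb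
      exact TS_mem m _ _
    have huQ : u ∈ Qsub F m := centralizer_le_Q hbQ hb1 hub
    obtain ⟨c, d, hcd⟩ := huQ
    have huu : u * u = 1 := by
      have : u * u = (y⁻¹ * x) * (a * a) * (y⁻¹ * x)⁻¹ := by rw [hu]; group
      rw [this]
      obtain ⟨α, rfl⟩ := ha
      rw [TS0_mul, add_self', TS_zero]; group
    have hc0 : c = 0 := by
      by_contra hc0
      have h4 := orderOf_TS_four (m := m) (b := d) hc0
      rw [← hcd] at h4
      have : orderOf u ∣ 2 := orderOf_dvd_of_pow_eq_one (by rw [pow_two]; exact huu)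
      rw [h4] at this
      omega
    apply mem_Binf_of_conj_mem_Zsub ha ha1
    exact ⟨d, by rw [← hu, hcd, hc0]⟩

/-- the image in `G` of the centre of a subgroup -/
theorem mem_center_map {G : Type*} [Group G] (K : Subgroup G) (g : G) :
    g ∈ (Subgroup.center K).map K.subtype ↔ g ∈ K ∧ ∀ k ∈ K, k * g = g * k := by
  constructor
  · rintro ⟨z, hz, rfl⟩
    refine ⟨z.2, fun k hk => ?_⟩
    have := Subgroup.mem_center_iff.1 hz ⟨k, hk⟩
    exact congrArg Subtype.val this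
  · rintro ⟨hg, hc⟩
    refine ⟨⟨g, hg⟩, ?_, rfl⟩
    rw [SetLike.mem_coe, Subgroup.mem_center_iff]
    rintro ⟨k, hk⟩
    exact Subtype.ext (hc k hk)

theorem center_Q_map : (Subgroup.center (Qsub F m)).map (Qsub F m).subtype = Zsub F m := by
  have hchar := charTwo (F := F) m
  ext g
  rw [mem_center_map]
  constructor
  · rintro ⟨⟨a, b, rfl⟩, hc⟩
    have h1 := hc (TS m 1 0) (TS_mem m _ _)
    rw [TS_mul, TS_mul] at h1
    have h2 := (TS_injective m h1).2
    simp at h2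
    have h3 : sig m a = a := by
      have : a = sig m a := by linear_combination h2
      exact this.symm
    have h4 := hc (TS m a 0) (TS_mem m _ _)
    obtain ⟨t, ht0, ht1⟩ := exists_ne_zero_one (F := F) m
    have h5 := hc (TS m t 0) (TS_mem m _ _)
    rw [TS_mul, TS_mul] at h5
    have h6 := (TS_injective m h5).2
    rw [h3] at h6
    have h7 : a * (sig m t + t) = 0 := by
      have h8 : sig m t * a = a * t := by linear_combination h6
      have : a * (sig m t + t) = sig m t * a + a * t := by ring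
      rw [this, h8, add_self']
    rcases mul_eq_zero.1 h7 with h | h
    · exact ⟨b, by rw [h]⟩
    · exfalso
      rcases (sig_eq_self_iff m t).1 (CharTwo.add_eq_zero.1 h) with h | h
      · exact ht0 h
      · exact ht1 h
  · rintro ⟨b, rfl⟩
    refine ⟨TS_mem m _ _, ?_⟩
    rintro _ ⟨c, d, rfl⟩
    exact TS_comm_zero m c d b

theorem center_sylow (P : Sylow 2 (Cfsg.Sz F m)) : ∃ x : Cfsg.Sz F m,
    (Subgroup.center (P : Subgroup (Cfsg.Sz F m))).map (P : Subgroup (Cfsg.Sz F m)).subtype =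
      (Zsub F m).map (MulAut.conj x).toMonoidHom := by
  obtain ⟨x, hx⟩ := exists_conj_mem_Q m P
  refine ⟨x, ?_⟩
  ext g
  rw [mem_center_map, Subgroup.mem_map_equiv, ← center_Q_map, mem_center_map]
  have e : (MulAut.conj x).symm g = x⁻¹ * g * x := by simp [MulAut.conj_symm_apply]
  rw [e]
  constructor
  · rintro ⟨h1, h2⟩
    refine ⟨(hx g).1 h1, fun k hk => ?_⟩
    have h3 : x * k * x⁻¹ ∈ P := by
      rw [hx]
      have : x⁻¹ * (x * k * x⁻¹) * x = k := by group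
      rwa [this]
    have h4 := h2 _ h3
    have e1 : k * (x⁻¹ * g * x) = x⁻¹ * ((x * k * x⁻¹) * g) * x := by group
    have e2 : x⁻¹ * g * x * k = x⁻¹ * (g * (x * k * x⁻¹)) * x := by group
    rw [e1, e2, h4]
  · rintro ⟨h1, h2⟩
    refine ⟨(hx g).2 h1, fun k hk => ?_⟩
    have h4 := h2 _ ((hx k).1 hk)
    have e1 : k * g = x * ((x⁻¹ * k * x) * (x⁻¹ * g * x)) * x⁻¹ := by group
    have e2 : g * k = x * ((x⁻¹ * g * x) * (x⁻¹ * k * x)) * x⁻¹ := by group
    rw [e1, e2, h4]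

theorem exists_sylow_center (x : Cfsg.Sz F m) : ∃ P : Sylow 2 (Cfsg.Sz F m),
    (Zsub F m).map (MulAut.conj x).toMonoidHom =
    (Subgroup.center (P : Subgroup (Cfsg.Sz F m))).map (P : Subgroup (Cfsg.Sz F m)).subtype := by
  have : Fact (Nat.Prime 2) := ⟨Nat.prime_two⟩
  refine ⟨x • QSylow F m, ?_⟩
  have hP : ∀ g : Cfsg.Sz F m, g ∈ ((x • QSylow F m : Sylow 2 (Cfsg.Sz F m)) : Subgroup (Cfsg.Sz F m)) ↔
      x⁻¹ * g * x ∈ Qsub F m := by
    intro g
    rw [Sylow.coe_subgroup_smul, Subgroup.mem_pointwise_smul_iff_inv_smul_mem, coe_QSylow]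
    simp [MulAut.smul_def, MulAut.conj_inv_apply]
  ext g
  rw [mem_center_map, Subgroup.mem_map_equiv, ← center_Q_map, mem_center_map]
  have e : (MulAut.conj x).symm g = x⁻¹ * g * x := by simp [MulAut.conj_symm_apply]
  rw [e]
  constructor
  · rintro ⟨h1, h2⟩
    refine ⟨(hP g).2 h1, fun k hk => ?_⟩
    have h4 := h2 _ ((hP k).1 hk)
    have e1 : k * g = x * ((x⁻¹ * k * x) * (x⁻¹ * g * x)) * x⁻¹ := by group
    have e2 : g * k = x * ((x⁻¹ * g * x) * (x⁻¹ * k * x)) * x⁻¹ := by group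
    rw [e1, e2, h4]
  · rintro ⟨h1, h2⟩
    refine ⟨(hP g).1 h1, fun k hk => ?_⟩
    have h3 : x * k * x⁻¹ ∈ ((x • QSylow F m : Sylow 2 (Cfsg.Sz F m)) : Subgroup (Cfsg.Sz F m)) := by
      rw [hP]
      have : x⁻¹ * (x * k * x⁻¹) * x = k := by group
      rwa [this]
    have h4 := h2 _ h3
    have e1 : k * (x⁻¹ * g * x) = x⁻¹ * ((x * k * x⁻¹) * g) * x := by group
    have e2 : x⁻¹ * g * x * k = x⁻¹ * (g * (x * k * x⁻¹)) * x := by group
    rw [e1, e2, h4]

end Cfsg.Agent.Lib.Helper37.Suz
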