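import Cfsg.Agent.Lib.Helper37.Suzuki.BinD

/-!
# Binary coset actions of the Suzuki groups: matrix computations
-/

set_option autoImplicit false

namespace Cfsg.Agent.Lib.Helper37.Suz

open Matrix TICount Bin
open scoped LinearAlgebra.Projectivization

variable {F : Type*} [Field F] [Fintype F] {m : ℕ} [SzField F m]

/-- the matrix of `w T(0,1) w` -/
def Lmat : Matrix (Fin 4) (Fin 4) F := !![1, 0, 0, 0; 0, 1, 0, 0; 1, 0, 1, 0; 1, 1, 0, 1]

/-- the involution `w T(0,1) w` -/
def LS (F : Type*) [Field F] [Fintype F] (m : ℕ) [SzField F m] : Cfsg.Sz F m := wS m * TS m 0 1 * wS m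

theorem coe_LS : (LS F m).1.1 = Lmat := by
  show wmat * Tmat m 0 1 * wmat = Lmat
  ext i j
  fin_cases i <;> fin_cases j <;>
    simp [Lmat, wmat, Tmat, Matrix.mul_apply, Fin.sum_univ_four, ff]

theorem LS_mul_LS : LS F m * LS F m = 1 := by
  have hchar := charTwo (F := F) m
  unfold LS
  have : wS m * TS m 0 1 * wS m * (wS m * TS m 0 1 * wS m) =
      wS m * (TS m 0 (1 : F) * (wS m * wS m) * TS m 0 1) * wS m := by group
  rw [this, wS_mul_wS, mul_one, TS0_mul, add_self', TS_zero, mul_one, wS_mul_wS]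

theorem trS_TLTL (x y : F) :
    trS (TS m x (y + sig m x * x) * LS F m * TS m x y * LS F m) = ff m x y ^ 2 := by
  have hchar := charTwo (F := F) m
  have h2 : (2 : F) = 0 := two_eq_zero'
  unfold trS
  show Matrix.trace (Tmat m x (y + sig m x * x) * (LS F m).1.1 * Tmat m x y * (LS F m).1.1) = _
  rw [coe_LS]
  simp [Matrix.trace, Fin.sum_univ_four, Tmat, Lmat, Matrix.mul_apply]
  unfold ff
  simp only [sig_add, sig_mul, sig_sig]
  grind

theorem entry_02 (x y β : F) :
    (Tmat m x y * Lmat * Tmat m x (y + sig m x * x + β) * Lmat : Matrix (Fin 4) (Fin 4) F) 0 2 +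
      (Lmat * Tmat m x (y + β) * Lmat * Tmat m x (y + sig m x * x) : Matrix (Fin 4) (Fin 4) F) 0 2 =
      sig m y * β + y * sig m β + sig m x * sig m β + x ^ 2 * sig m x * β := by
  have hchar := charTwo (F := F) m
  have h2 : (2 : F) = 0 := two_eq_zero'
  simp [Fin.sum_univ_four, Tmat, Lmat, Matrix.mul_apply]
  unfold ff
  simp only [sig_add, sig_mul, sig_sig]
  grind

theorem entry_20 (x y β : F) :
    (Tmat m x y * Lmat * Tmat m x (y + sig m x * x + β) * Lmat : Matrix (Fin 4) (Fin 4) F) 2 0 +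
      (Lmat * Tmat m x (y + β) * Lmat * Tmat m x (y + sig m x * x) : Matrix (Fin 4) (Fin 4) F) 2 0 =
      x * (sig m β + ff m x y + x * β + x * sig m x) := by
  have hchar := charTwo (F := F) m
  have h2 : (2 : F) = 0 := two_eq_zero'
  simp [Fin.sum_univ_four, Tmat, Lmat, Matrix.mul_apply]
  unfold ff
  simp only [sig_add, sig_mul, sig_sig]
  grind

end Cfsg.Agent.Lib.Helper37.Suz
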