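import Cfsg.Agent.Lib.Helper37.Suzuki.BinE

/-!
# Binary coset actions of the Suzuki groups: subgroups of odd order
-/

set_option autoImplicit false

namespace Cfsg.Agent.Lib.Helper37.Suz

open Matrix TICount Bin
open scoped LinearAlgebra.Projectivization

variable {F : Type*} [Field F] [Fintype F] {m : ℕ} [SzField F m]

theorem not_comm_aux {x y β : F}
    (h : sig m y * β + y * sig m β + sig m x * sig m β + x ^ 2 * sig m x * β ≠ 0 ∨
      x * (sig m β + ff m x y + x * β + x * sig m x) ≠ 0) :
    (TS m x y * (TS m 0 β * LS F m) * (TS m x y)⁻¹) * (TS m 0 β * LS F m) ≠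
      (TS m 0 β * LS F m) * (TS m x y * (TS m 0 β * LS F m) * (TS m x y)⁻¹) := by
  have hchar := charTwo (F := F) m
  intro hc
  have e1 : (TS m x y * (TS m 0 β * LS F m) * (TS m x y)⁻¹) * (TS m 0 β * LS F m) =
      (TS m x y * TS m 0 β) * LS F m * ((TS m x y)⁻¹ * TS m 0 β) * LS F m := by group
  have e2 : (TS m 0 β * LS F m) * (TS m x y * (TS m 0 β * LS F m) * (TS m x y)⁻¹) =
      TS m 0 β * (LS F m * (TS m x y * TS m 0 β) * LS F m * (TS m x y)⁻¹) := by group
  rw [e1, e2, TS_comm_zero, TS_inv, TS_mul_zero] at hc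
  have e3 : TS m 0 β * TS m x y * LS F m * TS m x (y + sig m x * x + β) * LS F m =
      TS m 0 β * (TS m x y * LS F m * TS m x (y + sig m x * x + β) * LS F m) := by group
  rw [e3] at hc
  have hc2 := mul_left_cancel hc
  rw [← TS_comm_zero, TS_mul_zero] at hc2
  have hmat : (Tmat m x y * Lmat * Tmat m x (y + sig m x * x + β) * Lmat : Matrix (Fin 4) (Fin 4) F) =
      Lmat * Tmat m x (y + β) * Lmat * Tmat m x (y + sig m x * x) := by
    have := congrArg (fun g : Cfsg.Sz F m => g.1.1) hc2
    rw [← coe_LS (F := F) (m := m)]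
    exact this
  rcases h with h | h
  · apply h
    rw [← entry_02, hmat, add_self']
  · apply h
    rw [← entry_20, hmat, add_self']

/-- the choice of the third involution -/
theorem exists_third {β : F} (hβ : β ≠ 0) : ∃ x y : F, ff m x y ^ 2 = sig m β ∧
    (sig m y * β + y * sig m β + sig m x * sig m β + x ^ 2 * sig m x * β ≠ 0 ∨
      x * (sig m β + ff m x y + x * β + x * sig m x) ≠ 0) := by
  have hchar := charTwo (F := F) m
  have h2 : (2 : F) = 0 := two_eq_zero'
  by_cases h1 : β = 1
  · subst h1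
    obtain ⟨s, hs0, hs1⟩ := exists_ne_zero_one (F := F) m
    have hne : sig m s + s + 1 ≠ 0 := sig_add_self_add_one_ne_zero m s
    obtain ⟨k, hk⟩ := sig_sq_surjective (m := m) (sig m s + s + 1)⁻¹
    have hk0 : k ≠ 0 := by
      rintro rfl
      simp at hk
      exact hne hk.symm
    have hff : ff m k (sig m k * k * s) = 1 := by
      have := ff_scale m k 1 s
      rw [mul_one] at this
      rw [this, hk]
      have : ff m 1 s = sig m s + s + 1 := by unfold ff; simp; ring
      rw [this, inv_mul_cancel₀ hne]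
    refine ⟨k, sig m k * k * s, by rw [hff]; simp, Or.inr ?_⟩
    rw [hff, sig_one]
    have e : k * (1 + 1 + k * 1 + k * sig m k) = k * k * (1 + sig m k) := by
      rw [add_self']; ring
    rw [e]
    apply mul_ne_zero (mul_ne_zero hk0 hk0)
    intro h
    have hsk : sig m k = 1 := (CharTwo.add_eq_zero.1 h).symm
    have hk1 : k = 1 := by
      apply sig_injective m
      rw [hsk, sig_one]
    rw [hk1, sig_one, one_pow, one_mul] at hk
    have h3 : sig m s + s + 1 = 1 := by
      rw [← _root_.inv_inj, ← hk, inv_one]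
    have h4 : sig m s = s := by
      have : sig m s + s = 0 := by linear_combination h3
      exact CharTwo.add_eq_zero.1 this
    rcases (sig_eq_self_iff m s).1 h4 with h | h
    · exact hs0 h
    · exact hs1 h
  · obtain ⟨y, hy⟩ := exists_sqrt m β
    have hy0 : y ≠ 0 := by
      rintro rfl
      apply hβ
      rw [← hy]; simp
    refine ⟨0, y, ?_, Or.inl ?_⟩
    · unfold ff
      rw [← hy, sig_pow]; simp
    · rw [← hy, sig_pow]
      have e : sig m y * y ^ 2 + y * sig m y ^ 2 + sig m 0 * sig m y ^ 2 + 0 ^ 2 * sig m 0 * y ^ 2 =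
          y * sig m y * (sig m y + y) := by
        rw [sig_zero]; ring
      rw [e]
      apply mul_ne_zero (mul_ne_zero hy0 (sig_ne_zero m hy0))
      intro h
      rcases (sig_eq_self_iff m y).1 (CharTwo.add_eq_zero.1 h) with h | h
      · exact hy0 h
      · apply h1
        rw [← hy, h, one_pow]

/-- subgroups of odd order: normalised position -/
theorem not_bin_odd_aux (H : Subgroup (Cfsg.Sz F m)) (hodd : Odd (Nat.card H)) {β : F} (hβ : β ≠ 0)
    (hb : TS m 0 β * LS F m ∈ H) : ¬ IsBin' H := by
  have hchar := charTwo (F := F) m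
  set b₀ := TS m 0 β * LS F m with hb₀
  have htr : trS b₀ = sig m β := by
    have : b₀ = TS m 0 β * wS m * TS m 0 1 * wS m := by rw [hb₀, LS]; group
    rw [this, trS_normal, mul_one]
  have hO : OddT b₀ := OddT.of_trS (by rw [htr]; exact sig_ne_zero m hβ)
  have hle : H ≤ Tor m b₀ := odd_subgroup_le_Tor H hodd hb hO.1
  obtain ⟨x, y, hff, hnc⟩ := exists_third (m := m) hβ
  have hnc' := not_comm_aux hnc
  rw [← hb₀] at hnc'
  set u := TS m x y with hu
  set a := u * b₀ * u⁻¹ with ha
  set c := LS F m * (u * LS F m * u⁻¹) with hc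
  have hac : a = b₀ * c := by
    have e1 : b₀ * c = TS m 0 β * (LS F m * LS F m) * (u * LS F m * u⁻¹) := by
      rw [hb₀, hc]; group
    have e2 : a = (u * TS m 0 β) * LS F m * u⁻¹ := by rw [ha, hb₀]; group
    rw [e1, e2, LS_mul_LS, mul_one, hu, TS_comm_zero]
    group
  have htrc : trS c = sig m β := by
    have e1 : c = LS F m * u * LS F m * u⁻¹ := by rw [hc]; group
    rw [e1, trS_mul_comm]
    have e2 : u⁻¹ * (LS F m * u * LS F m) = u⁻¹ * LS F m * u * LS F m := by group
    rw [e2, hu, TS_inv, trS_TLTL, hff]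
  have hconj : IsConj b₀ c := hO.isConj_of_trS (by rw [htr, htrc])
  have hOc : OddT c := OddT.of_trS (by rw [htrc]; exact sig_ne_zero m hβ)
  have hOa : OddT a := hO.conj u
  obtain ⟨v, hv⟩ := isConj_iff.1 hconj
  apply not_isBin'_of_triple H 1 u v b₀ a c⁻¹
  · simpa using hb
  · have : u⁻¹ * a * u = b₀ := by rw [ha]; group
    rw [this]; exact hb
  · have : v⁻¹ * c⁻¹ * v = b₀⁻¹ := by rw [← hv]; group
    rw [this]; exact H.inv_mem hb
  · rw [hac]; group
  · intro s t hs1 hs2 ht1 ht2 hst
    simp only [inv_one, one_mul, mul_one] at hs1 ht1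
    have hs : s = 1 := by
      by_contra hs
      have h1 := (hO.Tor_eq (hle hs1) hs).1
      have h2 : s ∈ Tor m a := by
        rw [ha, mem_Tor_conj]
        exact hle hs2
      have h3 := (hOa.Tor_eq h2 hs).1
      have h4 : a ∈ Tor m b₀ := by
        rw [← h1, h3]
        exact self_mem_Tor a
      exact hnc' (mem_Tor.1 h4)
    have ht : t = 1 := by
      by_contra ht
      have h1 := (hO.Tor_eq (hle ht1) ht).1
      have h2 : t ∈ Tor m c := by
        rw [← hv, mem_Tor_conj]
        exact hle ht2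
      have h3 := (hOc.Tor_eq h2 ht).1
      have h4 : c ∈ Tor m b₀ := by
        rw [← h1, h3]
        exact self_mem_Tor c
      apply hnc'
      have h5 := mem_Tor.1 h4
      rw [hac, mul_assoc, h5]
    rw [hs, ht, mul_one] at hst
    exact hO.1 hst

end Cfsg.Agent.Lib.Helper37.Suz
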