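import Cfsg.Agent.Lib.Helper37.Suzuki.BinF

/-!
# Binary coset actions of the Suzuki groups: subgroups of the Borel subgroup
-/

set_option autoImplicit false

namespace Cfsg.Agent.Lib.Helper37.Suz

open Matrix TICount Bin
open scoped LinearAlgebra.Projectivization

variable {F : Type*} [Field F] [Fintype F] {m : ℕ} [SzField F m]

theorem Binf_form {g : Cfsg.Sz F m} (hg : g ∈ Binf F m) : ∃ (a b : F) (l : Fˣ), g = TS m a b * hS m l := by
  obtain ⟨a, b, l, h⟩ := inf_stab m g.2 hg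
  exact ⟨a, b, l, Subtype.ext h⟩

theorem form_inj {a b c d : F} {k l : Fˣ} (h : TS m a b * hS m k = TS m c d * hS m l) :
    a = c ∧ b = d ∧ k = l := T_hh_injective m (congrArg Subtype.val h)

theorem form_mul (a b c d : F) (k l : Fˣ) : TS m a b * hS m k * (TS m c d * hS m l) =
    TS m (a + k * c) (b + sig m (k : F) * k * d + sig m a * (k * c)) * hS m (k * l) := by
  have e : TS m a b * hS m k * (TS m c d * hS m l) =
      TS m a b * (hS m k * TS m c d * (hS m k)⁻¹) * (hS m k * hS m l) := by group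
  rw [e, hS_conj_TS, TS_mul, hS_mul]

theorem TS_eq_form (a b : F) : TS m a b = TS m a b * hS m 1 := by rw [hS_one, mul_one]

theorem hS_eq_form (k : Fˣ) : hS m k = TS m 0 0 * hS m k := by rw [TS_zero, one_mul]

theorem fix_of_conj_mem {H : Subgroup (Cfsg.Sz F m)} (hB : H ≤ Binf F m) {x z : Cfsg.Sz F m}
    (h : x⁻¹ * z * x ∈ H) : z.1 • (x.1 • (inf : ℙ F (Fin 4 → F))) = x.1 • (inf : ℙ F (Fin 4 → F)) := by
  have h1 := hB h
  rw [mem_Binf] at h1
  have e : (x⁻¹ * z * x).1 = x.1⁻¹ * z.1 * x.1 := rfl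
  rw [e, mul_smul, mul_smul, inv_smul_eq_iff] at h1
  exact h1

theorem triple_identity : TS m 0 (1 : F) =
    (wS m * TS m 1 0 * wS m) * (LS F m * TS m 1 0 * LS F m) := by
  have hchar := charTwo (F := F) m
  have h2 : (2 : F) = 0 := two_eq_zero'
  apply Subtype.ext
  apply Subtype.ext
  show Tmat m 0 1 = (wmat * Tmat m 1 0 * wmat) * ((LS F m).1.1 * Tmat m 1 0 * (LS F m).1.1)
  rw [coe_LS]
  ext i j
  fin_cases i <;> fin_cases j <;>
    simp [Lmat, wmat, Tmat, Matrix.mul_apply, Fin.sum_univ_four, ff] <;> grind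

theorem LS_inv : (LS F m)⁻¹ = LS F m := inv_eq_of_mul_eq_one_left LS_mul_LS

theorem LS_smul_inf : (LS F m).1 • (inf : ℙ F (Fin 4 → F)) = pt m 1 0 := by
  have e : (LS F m).1 = (w : Matrix.SpecialLinearGroup (Fin 4) F) * T m 0 1 * w := rfl
  have hff : ff m (0 : F) 1 = 1 := by simp [ff]
  rw [e, mul_smul, mul_smul, w_smul_inf m, T_smul_zero, w_smul_pt m 0 1 (by rw [hff]; exact one_ne_zero), hff]
  simp

/-- subgroups of the Borel subgroup containing an element of order four -/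
theorem not_bin_four (H : Subgroup (Cfsg.Sz F m)) (hB : H ≤ Binf F m) {t : Cfsg.Sz F m} (ht : t ∈ H)
    (h4 : orderOf t = 4) : ¬ IsBin' H := by
  have hchar := charTwo (F := F) m
  have ho10 : orderOf (TS m (1 : F) 0) = 4 := orderOf_TS_four one_ne_zero
  have hob : orderOf (wS m * TS m (1 : F) 0 * wS m) = 4 := by
    have := orderOf_conj' (wS m) (TS m (1 : F) 0)
    rw [wS_inv] at this
    rw [this, ho10]
  have hoc : orderOf (LS F m * TS m (1 : F) 0 * LS F m) = 4 := by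
    have := orderOf_conj' (LS F m) (TS m (1 : F) 0)
    rw [LS_inv] at this
    rw [this, ho10]
  have hott : orderOf (t * t) = 2 := by
    rw [← pow_two, orderOf_pow_of_dvd (by norm_num) (by rw [h4]; norm_num), h4]
  obtain ⟨xa, hxa⟩ := invol_isConj hott (orderOf_TS0 (m := m) (one_ne_zero (α := F)))
  obtain ⟨xb, hxb⟩ := four_isConj h4 hob
  obtain ⟨xc, hxc⟩ := four_isConj h4 hoc
  have ha : xa⁻¹ * TS m 0 1 * xa ∈ H := by
    rw [← hxa]
    have : xa⁻¹ * (xa * (t * t) * xa⁻¹) * xa = t * t := by group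
    rw [this]; exact H.mul_mem ht ht
  have hb : xb⁻¹ * (wS m * TS m 1 0 * wS m) * xb ∈ H := by
    rcases hxb with h | h
    · rw [← h]
      have : xb⁻¹ * (xb * t * xb⁻¹) * xb = t := by group
      rw [this]; exact ht
    · have h' : wS m * TS m 1 0 * wS m = xb * t⁻¹ * xb⁻¹ := by
        rw [← inv_inv (wS m * TS m 1 0 * wS m), ← h]; group
      rw [h']
      have : xb⁻¹ * (xb * t⁻¹ * xb⁻¹) * xb = t⁻¹ := by group
      rw [this]; exact H.inv_mem ht
  have hc : xc⁻¹ * (LS F m * TS m 1 0 * LS F m) * xc ∈ H := by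
    rcases hxc with h | h
    · rw [← h]
      have : xc⁻¹ * (xc * t * xc⁻¹) * xc = t := by group
      rw [this]; exact ht
    · have h' : LS F m * TS m 1 0 * LS F m = xc * t⁻¹ * xc⁻¹ := by
        rw [← inv_inv (LS F m * TS m 1 0 * LS F m), ← h]; group
      rw [h']
      have : xc⁻¹ * (xc * t⁻¹ * xc⁻¹) * xc = t⁻¹ := by group
      rw [this]; exact H.inv_mem ht
  -- the fixed points
  have hPa : xa.1 • (inf : ℙ F (Fin 4 → F)) = inf := by
    apply T_fix m (a := 0) (b := 1) (by simp) (smul_mem_of_mem_Sz m xa.2 (inf_mem m))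
    exact fix_of_conj_mem hB ha
  have hPb : xb.1 • (inf : ℙ F (Fin 4 → F)) = pt m 0 0 := by
    have h1 := fix_of_conj_mem hB hb
    have e : (wS m * TS m 1 0 * wS m : Cfsg.Sz F m).1 =
        (w : Matrix.SpecialLinearGroup (Fin 4) F) * T m 1 0 * w := rfl
    rw [e, mul_smul, mul_smul] at h1
    have h2 : T m (1 : F) 0 • ((w : Matrix.SpecialLinearGroup (Fin 4) F) • xb.1 • (inf : ℙ F (Fin 4 → F))) =
        (w : Matrix.SpecialLinearGroup (Fin 4) F) • xb.1 • (inf : ℙ F (Fin 4 → F)) := by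
      have := congrArg (fun p => (w : Matrix.SpecialLinearGroup (Fin 4) F) • p) h1
      simp only [← mul_smul] at this ⊢
      rw [← mul_assoc, ← mul_assoc, w_mul_w, one_mul] at this
      exact this
    have h3 := T_fix m (a := 1) (b := 0) (by simp)
      (smul_mem_of_mem_Sz m (w_mem m) (smul_mem_of_mem_Sz m xb.2 (inf_mem m))) h2
    have h4 := congrArg (fun p => (w : Matrix.SpecialLinearGroup (Fin 4) F) • p) h3
    simp only [← mul_smul] at h4
    rw [← mul_assoc, w_mul_w, one_mul, w_smul_inf m] at h4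
    exact h4
  have hPc : xc.1 • (inf : ℙ F (Fin 4 → F)) = pt m 1 0 := by
    have h1 := fix_of_conj_mem hB hc
    have e : (LS F m * TS m 1 0 * LS F m : Cfsg.Sz F m).1 = (LS F m).1 * T m 1 0 * (LS F m).1 := rfl
    have hLL : (LS F m).1 * (LS F m).1 = 1 := congrArg Subtype.val (LS_mul_LS (F := F) (m := m))
    rw [e, mul_smul, mul_smul] at h1
    have h2 : T m (1 : F) 0 • ((LS F m).1 • xc.1 • (inf : ℙ F (Fin 4 → F))) =
        (LS F m).1 • xc.1 • (inf : ℙ F (Fin 4 → F)) := by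
      have := congrArg (fun p => (LS F m).1 • p) h1
      simp only [← mul_smul] at this ⊢
      rw [← mul_assoc, ← mul_assoc, hLL, one_mul] at this
      exact this
    have h3 := T_fix m (a := 1) (b := 0) (by simp)
      (smul_mem_of_mem_Sz m (LS F m).2 (smul_mem_of_mem_Sz m xc.2 (inf_mem m))) h2
    have h4 := congrArg (fun p => (LS F m).1 • p) h3
    simp only [← mul_smul] at h4
    rw [← mul_assoc, hLL, one_mul, LS_smul_inf] at h4
    exact h4
  apply not_isBin'_of_triple H xa xb xc _ _ _ ha hb hc triple_identity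
  intro s t' hs1 hs2 ht1 ht2 hst
  have s1 := fix_of_conj_mem hB hs1
  have s2 := fix_of_conj_mem hB hs2
  have t1 := fix_of_conj_mem hB ht1
  have t2 := fix_of_conj_mem hB ht2
  rw [hPa] at s1 t1
  rw [hPb] at s2
  rw [hPc] at t2
  obtain ⟨k, rfl⟩ := eq_hS_of_fix s1 s2
  have t3 : ((TS m 1 0)⁻¹ * t' * TS m 1 0).1 • (inf : ℙ F (Fin 4 → F)) = inf := by
    have e : ((TS m 1 0)⁻¹ * t' * TS m 1 0).1 = (T m 1 0)⁻¹ * t'.1 * T m 1 0 := rfl
    rw [e, mul_smul, mul_smul, T_smul_inf, t1, inv_smul_eq_iff, T_smul_inf]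
  have t4 : ((TS m 1 0)⁻¹ * t' * TS m 1 0).1 • pt m (0 : F) 0 = pt m 0 0 := by
    have e : ((TS m 1 0)⁻¹ * t' * TS m 1 0).1 = (T m 1 0)⁻¹ * t'.1 * T m 1 0 := rfl
    rw [e, mul_smul, mul_smul, T_smul_zero, t2, inv_smul_eq_iff, T_smul_zero]
  obtain ⟨l, hl⟩ := eq_hS_of_fix t3 t4
  have ht' : t' = TS m 1 0 * hS m l * (TS m 1 0)⁻¹ := by rw [← hl]; group
  have h5 : TS m 0 1 * TS m 1 0 = hS m k * (TS m 1 0 * hS m l) := by
    rw [hst, ht']; group
  rw [TS_mul, TS_eq_form, hS_eq_form k, form_mul] at h5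
  have h6 := (form_inj h5).2.1
  simp at h6

end Cfsg.Agent.Lib.Helper37.Suz
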