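import Cfsg.Agent.Lib.Helper37.Suzuki.BinG
import Cfsg.Agent.Lib.Helper37.Suzuki.SubD

/-!
# Binary coset actions of the Suzuki groups: the main theorem
-/

set_option autoImplicit false

namespace Cfsg.Agent.Lib.Helper37.Suz

open Matrix TICount Bin
open scoped LinearAlgebra.Projectivization

variable {F : Type*} [Field F] [Fintype F] {m : ℕ} [SzField F m]

/-- `Z ⋊ K` with `K ≠ 1` -/
theorem not_bin_frob (H : Subgroup (Cfsg.Sz F m)) (hB : H ≤ Binf F m) (hZ : ∀ b, TS m 0 b ∈ H)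
    (h4 : ∀ a b, TS m a b ∈ H → a = 0) {κ : Fˣ} (hκ : κ ≠ 1) (hk : hS m κ ∈ H) : ¬ IsBin' H := by
  have hchar := charTwo (F := F) m
  have hκ1 : (1 : F) + κ ≠ 0 := by
    intro h
    apply hκ
    apply Units.ext
    exact (CharTwo.add_eq_zero.1 h).symm
  -- every element of `H` has the form `T(0,b) h(l)`
  have hform : ∀ g ∈ H, ∃ (b : F) (l : Fˣ), g = TS m 0 b * hS m l := by
    intro g hg
    obtain ⟨a, b, l, rfl⟩ := Binf_form (hB hg)
    have h1 : TS m a b * hS m l * hS m κ * (TS m a b * hS m l)⁻¹ * (hS m κ)⁻¹ ∈ H :=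
      H.mul_mem (H.mul_mem (H.mul_mem hg hk) (H.inv_mem hg)) (H.inv_mem hk)
    have e : TS m a b * hS m l * hS m κ * (TS m a b * hS m l)⁻¹ * (hS m κ)⁻¹ =
        TS m a b * hS m κ * (TS m a b)⁻¹ * (hS m κ)⁻¹ := by
      have e1 : hS m l * hS m κ = hS m κ * hS m l := by rw [← hS_mul, ← hS_mul, mul_comm]
      have e2 : TS m a b * hS m l * hS m κ * (TS m a b * hS m l)⁻¹ * (hS m κ)⁻¹ =
          TS m a b * (hS m l * hS m κ) * (hS m l)⁻¹ * (TS m a b)⁻¹ * (hS m κ)⁻¹ := by group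
      rw [e2, e1]; group
    rw [e, comm_formula] at h1
    have h2 := h4 _ _ h1
    have h3 : a * (1 + κ) = 0 := by linear_combination h2
    rcases mul_eq_zero.1 h3 with h | h
    · exact ⟨b, l, by rw [h]⟩
    · exact absurd h hκ1
  -- conjugation by `T(c,0)`
  have hconj : ∀ (c : F), c ≠ 0 → ∀ s ∈ H, (TS m c 0)⁻¹ * s * TS m c 0 ∈ H → ∃ b, s = TS m 0 b := by
    intro c hc s hs hs2
    obtain ⟨b, l, rfl⟩ := hform s hs
    obtain ⟨b', l', h'⟩ := hform _ hs2
    rw [TS_inv, TS_eq_form c (0 + sig m c * c), TS_eq_form c 0, form_mul, form_mul] at h'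
    have h1 := (form_inj h').1
    simp at h1
    have h2 : c * (1 + l) = 0 := by linear_combination h1
    rcases mul_eq_zero.1 h2 with h | h
    · exact absurd h hc
    · have hl : l = 1 := by
        apply Units.ext
        exact (CharTwo.add_eq_zero.1 h).symm
      exact ⟨b, by rw [hl, hS_one, mul_one]⟩
  have hκ0 : (κ : F) ≠ 0 := κ.ne_zero
  set u := TS m (1 : F) 0 with hu
  set v := TS m ((κ : F)⁻¹) 0 with hv
  -- the product
  have hprod : ∃ b, (u * hS m κ * u⁻¹) * (v * hS m κ * v⁻¹) = TS m 0 b * hS m (κ * κ) := by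
    rw [hu, hv, TS_inv, TS_inv, hS_eq_form κ, TS_eq_form 1 0, TS_eq_form 1 (0 + sig m 1 * 1),
      TS_eq_form (κ : F)⁻¹ 0, TS_eq_form (κ : F)⁻¹ (0 + sig m (κ : F)⁻¹ * (κ : F)⁻¹),
      form_mul, form_mul, form_mul, form_mul, form_mul]
    have key : ∀ (A B : F) (K : Fˣ), A = 0 → K = κ * κ →
        ∃ b, TS m A B * hS m K = TS m 0 b * hS m (κ * κ) := by
      rintro A B K rfl rfl
      exact ⟨B, rfl⟩
    apply key
    · simp
      field_simp
      have h2 : (2 : F) = 0 := two_eq_zero'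
      linear_combination (1 + (κ : F)) * h2
    · simp
  obtain ⟨b₁, hb₁⟩ := hprod
  apply not_isBin'_of_triple H 1 u v _ (u * hS m κ * u⁻¹) (v * hS m κ * v⁻¹) _ _ _ rfl
  · intro s t hs1 hs2 ht1 ht2 hst
    simp only [inv_one, one_mul, mul_one] at hs1 ht1
    obtain ⟨b, rfl⟩ := hconj 1 one_ne_zero s hs1 hs2
    obtain ⟨b', rfl⟩ := hconj _ (inv_ne_zero hκ0) t ht1 ht2
    rw [hb₁, TS0_mul, TS_eq_form 0 (b + b')] at hst
    have h1 := (form_inj hst).2.2
    apply hκ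
    apply unit_sq_eq_one (F := F) m
    rw [inv_eq_iff_mul_eq_one]
    exact h1
  · simp only [inv_one, one_mul, mul_one]
    rw [hb₁, hS_mul]
    exact H.mul_mem (hZ _) (H.mul_mem hk hk)
  · have : u⁻¹ * (u * hS m κ * u⁻¹) * u = hS m κ := by group
    rw [this]; exact hk
  · have : v⁻¹ * (v * hS m κ * v⁻¹) * v = hS m κ := by group
    rw [this]; exact hk

end Cfsg.Agent.Lib.Helper37.Suz
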