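import Cfsg.Agent.Lib.Helper37.Suzuki.BinH

/-!
# Binary coset actions of the Suzuki groups: the main theorem
-/

set_option autoImplicit false

namespace Cfsg.Agent.Lib.Helper37.Suz

open Matrix TICount Bin
open scoped LinearAlgebra.Projectivization Pointwise

variable {F : Type*} [Field F] [Fintype F] {m : ℕ} [SzField F m]

/-- a binary action with a point stabiliser of even order: the stabiliser contains the whole centre -/
theorem Z_le_of_bin (H : Subgroup (Cfsg.Sz F m)) (hbin : IsBin' H) {b₀ : F} (hb₀ : b₀ ≠ 0)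
    (h0 : TS m 0 b₀ ∈ H) (b : F) : TS m 0 b ∈ H := by
  have hchar := charTwo (F := F) m
  by_cases hb : b = 0
  · rw [hb, TS_zero]; exact H.one_mem
  by_cases hbb : b = b₀
  · rw [hbb]; exact h0
  have hB := (isBin_iff H).2 hbin
  have hN : ∀ i : Cfsg.Sz F m, orderOf i = 2 →
      (MulAction.fixedBy (Cfsg.Sz F m ⧸ H) i).ncard =
        (MulAction.fixedBy (Cfsg.Sz F m ⧸ H) (TS m 0 (1 : F))).ncard := by
    intro i hi
    obtain ⟨x, hx⟩ := invol_isConj hi (orderOf_TS0 (m := m) (one_ne_zero (α := F)))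
    rw [← hx, ← MulAction.smul_fixedBy, Set.ncard_smul_set]
  have hne : b₀ + b ≠ 0 := by
    intro h
    exact hbb (CharTwo.add_eq_zero.1 h).symm
  have key := fixedBy_eq_of_bin (G := Cfsg.Sz F m) (Ω := Cfsg.Sz F m ⧸ H) hB _ hN
    (orderOf_TS0 (m := m) hb₀) (orderOf_TS0 (m := m) hb)
    (by rw [TS0_mul]; exact orderOf_TS0 hne) (by rw [TS0_mul, TS0_mul, add_comm])
  have h1 : ((1 : Cfsg.Sz F m) : Cfsg.Sz F m ⧸ H) ∈ MulAction.fixedBy (Cfsg.Sz F m ⧸ H) (TS m 0 b₀) := by
    rw [MulAction.mem_fixedBy, smul_mk_eq]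
    simpa using h0
  rw [key, MulAction.mem_fixedBy, smul_mk_eq] at h1
  simpa using h1

/-- a subgroup containing the centre of `Q` and not contained in the Borel subgroup is everything -/
theorem eq_top_of_Z_le (M : Subgroup (Cfsg.Sz F m)) (hZ : ∀ b, TS m 0 b ∈ M) (hM : ¬ M ≤ Binf F m) :
    M = ⊤ := by
  by_contra htop
  obtain ⟨g, hg, hgB⟩ := SetLike.not_le_iff_exists.1 hM
  rw [mem_Binf] at hgB
  rcases (mem_ovoid_iff m _).1 (smul_mem_of_mem_Sz m g.2 (inf_mem m)) with h | ⟨x, y, hxy⟩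
  · exact absurd h hgB
  · set M₁ := cjS (TS m x y) M with hM₁
    have c1 : ∀ c, TS m 0 c ∈ M₁ := by
      intro c
      rw [hM₁, mem_cjS, TS_comm_zero, mul_inv_cancel_right]
      exact hZ c
    have hg' : (TS m x y)⁻¹ * g * TS m x y ∈ M₁ := by
      rw [hM₁, mem_cjS]
      have : TS m x y * ((TS m x y)⁻¹ * g * TS m x y) * (TS m x y)⁻¹ = g := by group
      rwa [this]
    have hg0 : ((TS m x y)⁻¹ * g * TS m x y).1 • (inf : ℙ F (Fin 4 → F)) = pt m 0 0 := by
      have e : ((TS m x y)⁻¹ * g * TS m x y).1 = (T m x y)⁻¹ * g.1 * T m x y := rfl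
      rw [e, mul_smul, mul_smul, T_smul_inf, hxy, inv_smul_eq_iff]
      exact (T_smul_zero m x y).symm
    have htop₁ : M₁ ≠ ⊤ := cjS_ne_top htop
    obtain ⟨b', hb', h2⟩ := invol_zero_of_mem M₁ (one_ne_zero (α := F)) (c1 1) hg' hg0
    obtain ⟨c, hc, -⟩ := swap_mem M₁ (one_ne_zero (α := F)) hb' (c1 1) h2
    -- the whole torus lies in `M₁`
    have htor : ∀ k : Fˣ, hS m k ∈ M₁ := by
      intro k
      have hκ : sig m (k : F) * k ≠ 0 := mul_ne_zero (sig_ne_zero m k.ne_zero) k.ne_zero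
      obtain ⟨k', hk', hkk⟩ := torus_mem M₁ (one_ne_zero (α := F)) hκ hb' (c1 1) (c1 _) h2
      rw [mul_one] at hkk
      rw [← kap_injective hkk]
      exact hk'
    have hw : wS m ∈ M₁ := by
      have : wS m = (wS m * hS m c) * (hS m c)⁻¹ := by group
      rw [this]
      exact M₁.mul_mem hc (M₁.inv_mem (htor c))
    obtain ⟨t, ht0, ht1⟩ := exists_ne_zero_one (F := F) m
    have hstd : StdPos M₁ := ⟨hw, 1, t, one_ne_zero, ht0, Ne.symm ht1, c1 1, c1 t⟩
    apply htop₁
    apply overgroup' m M₁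
    · rintro _ ⟨a, b, rfl⟩
      rw [hstd.TS_mem_iff]
      exact ⟨hstd.mem_L.2 (c1 a), hstd.mem_L.2 (c1 b)⟩
    · intro hle
      exact StdPos.wS_not_mem_Binf (hle hw)

/-- conjugate subgroup -/
abbrev cjm (x : Cfsg.Sz F m) (H : Subgroup (Cfsg.Sz F m)) : Subgroup (Cfsg.Sz F m) :=
  H.map (MulAut.conj x).toMonoidHom

theorem mem_cjm {x g : Cfsg.Sz F m} {H : Subgroup (Cfsg.Sz F m)} : g ∈ cjm x H ↔ x⁻¹ * g * x ∈ H := by
  rw [cjm, Subgroup.mem_map_equiv]
  simp [MulAut.conj_symm_apply]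

theorem conj_mem_cjm {x g : Cfsg.Sz F m} {H : Subgroup (Cfsg.Sz F m)} (hg : g ∈ H) :
    x * g * x⁻¹ ∈ cjm x H := by
  rw [mem_cjm]
  have : x⁻¹ * (x * g * x⁻¹) * x = g := by group
  rwa [this]

theorem cjm_cjm_inv (x : Cfsg.Sz F m) (H : Subgroup (Cfsg.Sz F m)) : cjm x (cjm x⁻¹ H) = H := by
  ext g
  rw [mem_cjm, mem_cjm]
  have : x⁻¹⁻¹ * (x⁻¹ * g * x) * x⁻¹ = g := by group
  rw [this]

/-- subgroups of odd order -/
theorem not_bin_odd (H : Subgroup (Cfsg.Sz F m)) (hodd : Odd (Nat.card H)) (hH : H ≠ ⊥) : ¬ IsBin' H := by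
  intro hbin
  obtain ⟨⟨h, hh⟩, h1'⟩ := Subgroup.ne_bot_iff_exists_ne_one.1 hH
  have h1 : h ≠ 1 := fun e => h1' (Subtype.ext e)
  have hord : Odd (orderOf h) := by
    have : orderOf h ∣ Nat.card H := by
      have := orderOf_dvd_natCard (⟨h, hh⟩ : H)
      rwa [← Subgroup.orderOf_coe] at this
    exact hodd.of_dvd_nat this
  have hO : OddT h := OddT.of_odd h1 hord
  obtain ⟨β, δ, hβ, hδ, hc⟩ := hO.normal_form
  have hc2 := hc.trans (normal_isConj (m := m) (β' := β * δ) (δ' := 1) hβ (mul_ne_zero hβ hδ) (by ring))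
  obtain ⟨c, hc3⟩ := isConj_iff.1 hc2
  apply not_bin_odd_aux (cjm c H) _ (mul_ne_zero hβ hδ) _ ((isBin'_map_iff _ H).2 hbin)
  · rw [cjm, Subgroup.card_map_of_injective (MulAut.conj c).injective]
    exact hodd
  · have : TS m 0 (β * δ) * LS F m = c * h * c⁻¹ := by
      rw [hc3, LS]; group
    rw [this]
    exact conj_mem_cjm hh

/-- the main theorem in the ovoid model -/
theorem bin_iff (H : Subgroup (Cfsg.Sz F m)) (hH : H ≠ ⊤) :
    IsBin' H ↔ H = ⊥ ∨ ∃ x, H = cjm x (Zsub F m) := by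
  have : Fact (Nat.Prime 2) := ⟨Nat.prime_two⟩
  constructor
  · intro hbin
    by_cases hbot : H = ⊥
    · exact Or.inl hbot
    right
    by_cases hodd : Odd (Nat.card H)
    · exact absurd hbin (not_bin_odd H hodd hbot)
    have heven : 2 ∣ Nat.card H := by
      rw [Nat.not_odd_iff_even] at hodd
      exact hodd.two_dvd
    obtain ⟨t, ht⟩ := exists_prime_orderOf_dvd_card' 2 heven
    have ht' : orderOf (t : Cfsg.Sz F m) = 2 := by rw [Subgroup.orderOf_coe, ht]
    obtain ⟨x, b₀, hb₀, hxb⟩ := invol_conj ht'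
    set H₁ := cjm x⁻¹ H with hH₁
    have hbin₁ : IsBin' H₁ := (isBin'_map_iff _ H).2 hbin
    have h0 : TS m 0 b₀ ∈ H₁ := by
      rw [← hxb]
      have := conj_mem_cjm (x := x⁻¹) t.2
      rwa [inv_inv] at this
    have hZ := Z_le_of_bin H₁ hbin₁ hb₀ h0
    have htop₁ : H₁ ≠ ⊤ := by
      intro h
      apply hH
      rw [← cjm_cjm_inv x H, ← hH₁, h]
      ext g
      rw [mem_cjm]
      simp
    have hB : H₁ ≤ Binf F m := by
      by_contra h
      exact htop₁ (eq_top_of_Z_le H₁ hZ h)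
    have h4 : ∀ t ∈ H₁, orderOf t ≠ 4 := by
      intro t ht h4
      exact not_bin_four H₁ hB ht h4 hbin₁
    have h4' : ∀ a b, TS m a b ∈ H₁ → a = 0 := by
      intro a b hab
      by_contra ha
      exact h4 _ hab (orderOf_TS_four ha)
    have hEq : H₁ = Zsub F m := by
      apply le_antisymm
      · intro g hg
        obtain ⟨a, b, k, rfl⟩ := Binf_form (hB hg)
        by_cases hk : k = 1
        · rw [hk, hS_one, mul_one] at hg ⊢
          exact ⟨b, by rw [h4' a b hg]⟩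
        · exfalso
          obtain ⟨c, d, hcd⟩ := exists_conj_hS (m := m) a b hk
          set v := (TS m c d)⁻¹ with hv
          have hvB : v ∈ Binf F m := Q_le_Binf m ((Qsub F m).inv_mem (TS_mem m c d))
          apply not_bin_frob (cjm v H₁) _ _ _ hk _ ((isBin'_map_iff _ H₁).2 hbin₁)
          · intro z hz
            rw [mem_cjm] at hz
            have : z = v * (v⁻¹ * z * v) * v⁻¹ := by group
            rw [this]
            exact (Binf F m).mul_mem ((Binf F m).mul_mem hvB (hB hz)) ((Binf F m).inv_mem hvB)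
          · intro b'
            rw [mem_cjm, hv, inv_inv, TS_comm_zero, mul_inv_cancel_right]
            exact hZ b'
          · intro a' b' hab
            by_contra ha
            rw [mem_cjm] at hab
            apply h4 _ hab
            have h5 : orderOf (v⁻¹ * TS m a' b' * v⁻¹⁻¹) = orderOf (TS m a' b') :=
              orderOf_conj' v⁻¹ (TS m a' b')
            rw [inv_inv v] at h5
            rw [h5]
            exact orderOf_TS_four ha
          · rw [mem_cjm, hv, inv_inv, ← hcd]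
            exact hg
      · rintro _ ⟨b, rfl⟩
        exact hZ b
    refine ⟨x, ?_⟩
    rw [← hEq, hH₁, cjm_cjm_inv]
  · rintro (rfl | ⟨x, rfl⟩)
    · exact isBin'_bot
    · exact (isBin'_map_iff _ _).2 isBin'_Zsub

end Cfsg.Agent.Lib.Helper37.Suz
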