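import Cfsg.Agent.Lib.Helper37.Suzuki.BinI
import Cfsg.Agent.Lib.Helper37.Suzuki.LieModel

/-!
# Binary coset actions of the Suzuki groups: transport to the Lie model
-/

set_option autoImplicit false

namespace Cfsg.Agent.Lib.Helper37.Suz

open Matrix TICount Bin

/-- the centre of a subgroup, as a subgroup of the ambient group -/
def Zc {G : Type*} [Group G] (K : Subgroup G) : Subgroup G := (Subgroup.center K).map K.subtype

theorem center_map_equiv {G G' : Type*} [Group G] [Group G'] (e : G ≃* G') (K : Subgroup G) :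
    ((Subgroup.center K).map K.subtype).map e.toMonoidHom =
      (Subgroup.center (K.map e.toMonoidHom : Subgroup G')).map (K.map e.toMonoidHom).subtype := by
  ext g
  rw [Subgroup.mem_map_equiv, mem_center_map, mem_center_map, Subgroup.mem_map_equiv]
  constructor
  · rintro ⟨h1, h2⟩
    refine ⟨h1, fun k hk => ?_⟩
    rw [Subgroup.mem_map_equiv] at hk
    have := congrArg e (h2 _ hk)
    simpa using this
  · rintro ⟨h1, h2⟩
    refine ⟨h1, fun k hk => ?_⟩
    have hk' : e k ∈ K.map e.toMonoidHom := by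
      rw [Subgroup.mem_map_equiv]; simpa using hk
    have := congrArg e.symm (h2 _ hk')
    simpa using this

theorem map_map_symm {G G' : Type*} [Group G] [Group G'] (e : G ≃* G') (H : Subgroup G') :
    (H.map e.symm.toMonoidHom).map e.toMonoidHom = H := by
  ext z
  rw [Subgroup.mem_map_equiv, Subgroup.mem_map_equiv]
  simp

theorem bin_transport {G G' : Type*} [Group G] [Group G'] [Finite G] [Finite G'] (e : G ≃* G')
    (Z : Subgroup G)
    (h1 : ∀ P : Sylow 2 G, ∃ x : G, (Subgroup.center (P : Subgroup G)).map (P : Subgroup G).subtype =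
      Z.map (MulAut.conj x).toMonoidHom)
    (h2 : ∀ x : G, ∃ P : Sylow 2 G, Z.map (MulAut.conj x).toMonoidHom =
      (Subgroup.center (P : Subgroup G)).map (P : Subgroup G).subtype)
    (hmain : ∀ H : Subgroup G, H ≠ ⊤ → (IsBin' H ↔ H = ⊥ ∨ ∃ x, H = Z.map (MulAut.conj x).toMonoidHom))
    (H : Subgroup G') (hH : H ≠ ⊤) :
    IsBin H ↔ (H = ⊥ ∨ ∃ P : Sylow 2 G',
      H = (Subgroup.center (P : Subgroup G')).map (P : Subgroup G').subtype) := by
  have : Fact (Nat.Prime 2) := ⟨Nat.prime_two⟩
  set H₀ := H.map e.symm.toMonoidHom with hH₀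
  have hback : H₀.map e.toMonoidHom = H := map_map_symm e H
  have htop : H₀ ≠ ⊤ := by
    intro h
    apply hH
    rw [← hback, h]
    ext z
    rw [Subgroup.mem_map_equiv]
    simp
  rw [isBin_iff, ← isBin'_map_iff e.symm H, hmain H₀ htop]
  constructor
  · rintro (h | ⟨x, hx⟩)
    · left
      rw [← hback, h, Subgroup.map_bot]
    · right
      obtain ⟨P₀, hP₀⟩ := h2 x
      have hs : Function.Surjective e.toMonoidHom := e.surjective
      refine ⟨P₀.mapSurjective hs, ?_⟩
      show H = Zc ((P₀.mapSurjective hs : Sylow 2 G') : Subgroup G')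
      rw [Sylow.coe_mapSurjective, Zc, ← center_map_equiv, ← hP₀, ← hx, hback]
  · rintro (h | ⟨P, hP⟩)
    · left
      rw [hH₀, h, Subgroup.map_bot]
    · right
      have hs : Function.Surjective e.symm.toMonoidHom := e.symm.surjective
      obtain ⟨x, hx⟩ := h1 (P.mapSurjective hs)
      refine ⟨x, ?_⟩
      rw [← hx]
      show H₀ = Zc ((P.mapSurjective hs : Sylow 2 G) : Subgroup G)
      rw [Sylow.coe_mapSurjective, Zc, ← center_map_equiv, ← hP]

theorem bin_lie {F : Type*} [Field F] [Fintype F] (m : ℕ) [SzField F m]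
    (H : Subgroup (Cfsg.Lie.Sz F (2 ^ (m + 1)))) (hH : H ≠ ⊤) :
    IsBin H ↔ (H = ⊥ ∨ ∃ P : Sylow 2 (Cfsg.Lie.Sz F (2 ^ (m + 1))),
      H = (Subgroup.center (P : Subgroup (Cfsg.Lie.Sz F (2 ^ (m + 1))))).map
        (P : Subgroup (Cfsg.Lie.Sz F (2 ^ (m + 1)))).subtype) := by
  have : Finite (Cfsg.Lie.Sz F (2 ^ (m + 1))) := Finite.of_equiv _ (lieEquiv (F := F) m).toEquiv
  exact bin_transport (lieEquiv (F := F) m) (Zsub F m) center_sylow exists_sylow_center bin_iff H hH

end Cfsg.Agent.Lib.Helper37.Suz
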