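import Cfsg.Agent.Lib.Helper37.Suzuki.Fixity

/-!
# The two-transitive coset action of a Suzuki group, for any group isomorphic to it
-/

set_option autoImplicit false

namespace Cfsg.Agent.Lib.Helper37.Suz

open Matrix TICount
open scoped LinearAlgebra.Projectivization

variable {F : Type*} [Field F] [Fintype F] {m : ℕ} [SzField F m]

theorem key_of_stab {Ω : Type*} [MulAction (Cfsg.Sz F m) Ω]
    [MulAction.IsPretransitive (Cfsg.Sz F m) Ω] {α : Ω}
    (hα : MulAction.stabilizer (Cfsg.Sz F m) α = Binf F m) (ω : Ω) (hω : ω ≠ α) :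
    ∃ a b : F, ω = TS m a b • ((wS m : Cfsg.Sz F m) • α) := by
  have hB : ∀ x ∈ Binf F m, x • α = α := by
    intro x hx
    rw [← hα] at hx
    exact hx
  obtain ⟨g, rfl⟩ := MulAction.exists_smul_eq (Cfsg.Sz F m) α ω
  rcases normal_form_S g with ⟨a, b, l, rfl⟩ | ⟨a, b, c, d, l, rfl⟩
  · exfalso
    apply hω
    apply hB
    exact mul_mem (T_smul_inf m a b) (hh_smul_inf m l)
  · refine ⟨a, b, ?_⟩
    rw [mul_smul, hB _ (mul_mem (T_smul_inf m c d) (hh_smul_inf m l)), mul_smul]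

theorem Q_free_of_stab {Ω : Type*} [MulAction (Cfsg.Sz F m) Ω]
    [MulAction.IsPretransitive (Cfsg.Sz F m) Ω] {α : Ω}
    (hα : MulAction.stabilizer (Cfsg.Sz F m) α = Binf F m) (ω : Ω) (hω : ω ≠ α) {a b : F}
    (h : TS m a b • ω = ω) : TS m a b = 1 := by
  obtain ⟨g, rfl⟩ := MulAction.exists_smul_eq (Cfsg.Sz F m) α ω
  by_contra hne
  apply hω
  have h1 : g⁻¹ * TS m a b * g ∈ Binf F m := by
    rw [← hα, MulAction.mem_stabilizer_iff, mul_smul, mul_smul, h, inv_smul_smul]
  have h2 : g ∈ Binf F m := by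
    rw [mem_Binf]
    apply T_fix m (a := a) (b := b) _ (smul_mem_of_mem_Sz m g.2 (inf_mem m))
    · rw [mem_Binf] at h1
      have h3 : (g⁻¹ * TS m a b * g).1 = g.1⁻¹ * T m a b * g.1 := rfl
      rw [h3, mul_smul, mul_smul, inv_smul_eq_iff] at h1
      exact h1
    · rintro ⟨rfl, rfl⟩
      exact hne (TS_zero m)
  rw [← hα] at h2
  exact h2

theorem coset_action_aux {G : Type*} [Group G] (e : Cfsg.Sz F m ≃* G) :
      Nat.card ((Binf F m).map e.toMonoidHom) =
        Fintype.card F ^ 2 * (Fintype.card F - 1) ∧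
      ((Binf F m).map e.toMonoidHom).index = Fintype.card F ^ 2 + 1 ∧
      MulAction.IsMultiplyPretransitive G (G ⧸ (Binf F m).map e.toMonoidHom) 2 ∧
      ∀ x y : G ⧸ (Binf F m).map e.toMonoidHom,
        x ≠ (QuotientGroup.mk 1) → y ≠ (QuotientGroup.mk 1) →
          ∃! s : ↥((Qsub F m).map e.toMonoidHom), (s : G) • x = y := by
  have : Finite G := Finite.of_equiv _ e.toEquiv
  set N := (Binf F m).map e.toMonoidHom with hNdef
  let _ : MulAction (Cfsg.Sz F m) (G ⧸ N) := MulAction.compHom (G ⧸ N) e.toMonoidHom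
  have hsm : ∀ (x : Cfsg.Sz F m) (ω : G ⧸ N), x • ω = e x • ω := fun _ _ => rfl
  have htr : MulAction.IsPretransitive (Cfsg.Sz F m) (G ⧸ N) := by
    constructor
    intro a b
    obtain ⟨g, hg⟩ := MulAction.exists_smul_eq G a b
    exact ⟨e.symm g, by rw [hsm, e.apply_symm_apply, hg]⟩
  have hα : MulAction.stabilizer (Cfsg.Sz F m) ((QuotientGroup.mk 1 : G ⧸ N)) = Binf F m := by
    ext x
    rw [MulAction.mem_stabilizer_iff, hsm]
    have h1 : e x • (QuotientGroup.mk 1 : G ⧸ N) = QuotientGroup.mk 1 ↔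
        e x ∈ MulAction.stabilizer G (QuotientGroup.mk 1 : G ⧸ N) := Iff.rfl
    rw [h1, MulAction.stabilizer_quotient, hNdef, Subgroup.mem_map]
    constructor
    · rintro ⟨y, hy, hxy⟩
      have : y = x := e.injective hxy
      rwa [← this]
    · intro hx
      exact ⟨x, hx, rfl⟩
  have hcardN : Nat.card N = Fintype.card F ^ 2 * (Fintype.card F - 1) := by
    rw [hNdef, Subgroup.card_map_of_injective e.injective, card_inf_stab]
  refine ⟨hcardN, ?_, ?_, ?_⟩
  · have h1 := MulAction.index_stabilizer_of_transitive (Cfsg.Sz F m) (QuotientGroup.mk 1 : G ⧸ N)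
    rw [hα, index_Binf] at h1
    rw [Subgroup.index, ← h1]
  · have h2 := two_transitive_of_stab hα
    rw [MulAction.is_two_pretransitive_iff] at h2 ⊢
    intro a b c d hab hcd
    obtain ⟨x, hx1, hx2⟩ := h2 hab hcd
    exact ⟨e x, hx1, hx2⟩
  · intro x y hx hy
    obtain ⟨a, b, h1⟩ := key_of_stab hα x hx
    obtain ⟨a', b', h2⟩ := key_of_stab hα y hy
    refine ⟨⟨e (TS m a' b' * (TS m a b)⁻¹), Subgroup.mem_map.2
      ⟨_, mul_mem (TS_mem m a' b') (inv_mem (TS_mem m a b)), rfl⟩⟩, ?_, ?_⟩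
    · show e (TS m a' b' * (TS m a b)⁻¹) • x = y
      rw [← hsm, h1, h2, mul_smul, inv_smul_smul]
    · rintro ⟨s, hs⟩ hsx
      obtain ⟨_, ⟨c, d, rfl⟩, rfl⟩ := Subgroup.mem_map.1 hs
      apply Subtype.ext
      show e (TS m c d) = e (TS m a' b' * (TS m a b)⁻¹)
      congr 1
      have h3 : TS m c d • x = y := hsx
      have h4 : (TS m a' b' * (TS m a b)⁻¹) • x = y := by
        rw [h1, h2, mul_smul, inv_smul_smul]
      have h5 : ((TS m a' b' * (TS m a b)⁻¹)⁻¹ * TS m c d) • x = x := by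
        rw [mul_smul, h3, ← h4, inv_smul_smul]
      obtain ⟨c', d', h6⟩ : (TS m a' b' * (TS m a b)⁻¹)⁻¹ * TS m c d ∈ Qsub F m :=
        mul_mem (inv_mem (mul_mem (TS_mem m a' b') (inv_mem (TS_mem m a b)))) (TS_mem m c d)
      rw [h6] at h5
      have h7 := Q_free_of_stab hα x hx h5
      rw [← h6] at h7
      exact (inv_mul_eq_one.1 h7).symm

theorem coset_action {G : Type*} [Group G] (e : Cfsg.Sz F m ≃* G) :
    ∃ S : Sylow 2 G,
      Nat.card (Subgroup.normalizer ((S : Subgroup G) : Set G)) =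
        Fintype.card F ^ 2 * (Fintype.card F - 1) ∧
      (Subgroup.normalizer ((S : Subgroup G) : Set G)).index = Fintype.card F ^ 2 + 1 ∧
      MulAction.IsMultiplyPretransitive G (G ⧸ Subgroup.normalizer ((S : Subgroup G) : Set G)) 2 ∧
      ∀ x y : G ⧸ Subgroup.normalizer ((S : Subgroup G) : Set G),
        x ≠ (QuotientGroup.mk 1) → y ≠ (QuotientGroup.mk 1) →
          ∃! s : ↥(S : Subgroup G), (s : G) • x = y := by
  have : Fact (Nat.Prime 2) := ⟨Nat.prime_two⟩
  have : Finite G := Finite.of_equiv _ e.toEquiv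
  have hsurj : Function.Surjective e.toMonoidHom := e.surjective
  refine ⟨(QSylow F m).mapSurjective hsurj, ?_⟩
  have hS : (((QSylow F m).mapSurjective hsurj : Sylow 2 G) :
      Subgroup G) = (Qsub F m).map e.toMonoidHom := by
    rw [Sylow.coe_mapSurjective, coe_QSylow]
  rw [hS]
  have hN : Subgroup.normalizer (((Qsub F m).map e.toMonoidHom : Subgroup G) : Set G) =
      (Binf F m).map e.toMonoidHom := by
    rw [← normalizer_Q, Subgroup.map_equiv_normalizer_eq]
  rw [hN]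
  exact coset_action_aux e

end Cfsg.Agent.Lib.Helper37.Suz
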